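import Cfsg.Agent.Lib.ToddCox.Fi23C1.P0
set_option autoImplicit false
set_option maxRecDepth 100000
namespace Cfsg.Agent.Lib.ToddCox.Fi23C1
theorem covered : Covered Eo inv W isH 15917 75607 := (Covered.trans (Covered.trans (Covered.trans (Covered.trans c0 (Covered.trans c1 c2)) (Covered.trans (Covered.trans c3 c4) (Covered.trans c5 c6))) (Covered.trans (Covered.trans (Covered.trans c7 c8) (Covered.trans c9 c10)) (Covered.trans (Covered.trans c11 c12) (Covered.trans c13 c14)))) (Covered.trans (Covered.trans (Covered.trans (Covered.trans c15 c16) (Covered.trans c17 c18)) (Covered.trans (Covered.trans c19 c20) (Covered.trans c21 c22))) (Covered.trans (Covered.trans (Covered.trans c23 c24) (Covered.trans c25 c26)) (Covered.trans (Covered.trans c27 c28) (Covered.trans c29 c30)))))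
theorem links : LinksOK Eo cF (2 * nEv) N ys 0 14080 := (LinksOK.trans (LinksOK.trans (LinksOK.trans k0 (LinksOK.trans k1 k2)) (LinksOK.trans (LinksOK.trans k3 k4) (LinksOK.trans k5 k6))) (LinksOK.trans (LinksOK.trans k7 (LinksOK.trans k8 k9)) (LinksOK.trans (LinksOK.trans k10 k11) (LinksOK.trans k12 k13))))
theorem defs : ∀ c, c < nDef → chkDef Eo inv c = true := defs_of_bits 15917 13 2 (by norm_num) (by
  intro j hj
  interval_cases j
  · exact d0
  · exact d1
  )
theorem words : ∀ j, j < nW → wordsOK W (relR Rb inv) inv sp j = true := allBelow_spec (by norm_num [nW]) wordsGood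
end Cfsg.Agent.Lib.ToddCox.Fi23C1
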